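import Mathlib
import Cfsg.Agent.PermPrimes.JordanCycle

set_option autoImplicit false

namespace CfsgLib.PermPrimes

open Equiv Equiv.Perm MulAction

/-- No faithful transitive group of order `p (p+1)` on `p+1` points when `p+1` has two different
prime divisors. -/
theorem not_sharp_transitive {G X : Type*} [Group G] [Finite G] [MulAction G X] [FaithfulSMul G X]
    [Finite X] [IsPretransitive G X] {p r s : ℕ} (hp : p.Prime) (hX : Nat.card X = p + 1)
    (hG : Nat.card G = p * (p + 1)) (hr : r.Prime) (hs : s.Prime) (hrs : r ≠ s)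
    (hr1 : r ∣ p + 1) (hs1 : s ∣ p + 1) : False := by
  classical
  haveI : Fact p.Prime := ⟨hp⟩
  obtain ⟨P⟩ := (inferInstance : Nonempty (Sylow p G))
  have hpnd : ¬ p ∣ p + 1 := fun h => hp.not_dvd_one ((Nat.dvd_add_right dvd_rfl).1 h)
  have hPc : Nat.card (P : Subgroup G) = p := by
    rw [P.card_eq_multiplicity, hG, Nat.factorization_mul hp.ne_zero (Nat.succ_ne_zero p)]
    simp [hp.factorization, Nat.factorization_eq_zero_of_not_dvd hpnd]
  have hidx : (P : Subgroup G).index = p + 1 := by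
    have h := (P : Subgroup G).card_mul_index
    rw [hPc, hG] at h
    exact Nat.eq_of_mul_eq_mul_left hp.pos h
  have hn : Nat.card (Sylow p G) ∣ p + 1 := hidx ▸ P.card_dvd_index
  have hn1 : Nat.card (Sylow p G) ≡ 1 [MOD p] := card_sylow_modEq_one p G
  have hn2 : Nat.card (Sylow p G) ≤ p + 1 := Nat.le_of_dvd (Nat.succ_pos p) hn
  have hcases : Nat.card (Sylow p G) = 1 ∨ Nat.card (Sylow p G) = p + 1 := by
    rcases Nat.lt_or_ge (Nat.card (Sylow p G)) p with h | h
    · left
      have h' := hn1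
      rw [Nat.ModEq, Nat.mod_eq_of_lt h, Nat.mod_eq_of_lt hp.one_lt] at h'
      exact h'
    · right
      rcases Nat.eq_or_lt_of_le hn2 with h2 | h2
      · exact h2
      · exfalso
        have e : Nat.card (Sylow p G) = p := by omega
        rw [e] at hn
        exact hpnd hn
  rcases hcases with h | h
  · have hN : (P : Subgroup G).Normal := by
      haveI : Subsingleton (Sylow p G) := (Nat.card_eq_one_iff_unique.1 h).1
      exact Sylow.normal_of_subsingleton P
    obtain ⟨a, ha⟩ := P.isPGroup'.nonempty_fixed_point_of_prime_not_dvd_card X (hX ▸ hpnd)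
    have hbot : (P : Subgroup G) = ⊥ := by
      rw [Subgroup.eq_bot_iff_forall]
      intro u hu
      refine eq_of_smul_eq_smul (α := X) fun x => ?_
      obtain ⟨g, rfl⟩ := exists_smul_eq G a x
      have hv : g⁻¹ * u * g ∈ (P : Subgroup G) := by
        simpa using hN.conj_mem u hu g⁻¹
      have e : (g⁻¹ * u * g) • a = a := ha ⟨_, hv⟩
      rw [mul_smul, mul_smul, inv_smul_eq_iff] at e
      rw [e, one_smul]
    rw [hbot, Subgroup.card_bot] at hPc
    exact hp.one_lt.ne hPc
  · have hNP : Subgroup.normalizer ((P : Subgroup G) : Set G) = P := by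
      refine (Subgroup.eq_of_le_of_card_ge Subgroup.le_normalizer ?_).symm
      have h2 := (Subgroup.normalizer ((P : Subgroup G) : Set G)).card_mul_index
      rw [show (Subgroup.normalizer ((P : Subgroup G) : Set G)).index = p + 1 from
        (Sylow.card_eq_index_normalizer P).symm.trans h, hG] at h2
      rw [hPc, Nat.eq_of_mul_eq_mul_right (Nat.succ_pos p) h2]
    haveI : IsCyclic (P : Subgroup G) := isCyclic_of_prime_card hPc
    have hcomm : ∀ u v : (P : Subgroup G), u * v = v * u := fun u v => (IsCyclic.commutative (α := (P : Subgroup G))).is_comm.comm u v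
    have hC : Subgroup.normalizer ((P : Subgroup G) : Set G) ≤
        Subgroup.centralizer ((P : Subgroup G) : Set G) := by
      rw [hNP]
      exact fun u hu => Subgroup.mem_centralizer_iff.2 fun v hv =>
        congrArg Subtype.val (hcomm ⟨v, hv⟩ ⟨u, hu⟩)
    set K := (MonoidHom.transferSylow P hC).ker with hK
    have hcompl : K.IsComplement' P := MonoidHom.ker_transferSylow_isComplement' P hC
    have hKc : Nat.card K = p + 1 := by
      have := hcompl.card_mul
      rw [hPc, hG, Nat.mul_comm] at this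
      exact Nat.eq_of_mul_eq_mul_left hp.pos this
    have key : ∀ k : K, k ≠ 1 → ∀ l : K, l ≠ 1 → orderOf (k : G) = orderOf (l : G) := by
      intro k hk l hl
      let c : ↥(P : Subgroup G) → {y : K // y ≠ 1} := fun u =>
        ⟨⟨(u : G) * k * (u : G)⁻¹, Subgroup.Normal.conj_mem (MonoidHom.normal_ker _) _ k.2 _⟩, fun e => hk (by
          have e' : (u : G) * (k : G) * (u : G)⁻¹ = 1 := congrArg Subtype.val e
          exact Subtype.ext (conj_eq_one_iff.1 e'))⟩
      have hinj : Function.Injective c := by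
        intro u v e
        by_contra hne
        have e' : (u : G) * (k : G) * (u : G)⁻¹ = (v : G) * (k : G) * (v : G)⁻¹ :=
          congrArg (fun y : {y : K // y ≠ 1} => ((y.1 : K) : G)) e
        set w := v⁻¹ * u with hw
        have hw1 : w ≠ 1 := fun h => hne (inv_mul_eq_one.1 h).symm
        have hwk : (w : G) * k = k * w := by
          rw [← mul_inv_eq_iff_eq_mul]
          calc (w : G) * k * (w : G)⁻¹ = (v : G)⁻¹ * ((u : G) * k * (u : G)⁻¹) * v := by
                rw [hw]; push_cast; group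
            _ = k := by rw [e']; group
        have hkN : (k : G) ∈ (P : Subgroup G) := by
          rw [← hNP]
          have hP' : (P : Subgroup G) ≤ Subgroup.centralizer ({(k : G)} : Set G) := by
            intro x hx
            obtain ⟨i, hi⟩ : (⟨x, hx⟩ : (P : Subgroup G)) ∈ Subgroup.zpowers w :=
              mem_zpowers_of_prime_card hPc hw1
            have : x = (w : G) ^ i := by
              rw [← Subgroup.coe_zpow]; exact congrArg Subtype.val hi.symm
            rw [this]
            exact Subgroup.zpow_mem _ (Subgroup.mem_centralizer_singleton_iff.2 hwk) i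
          refine Subgroup.centralizer_le_normalizer _ (Subgroup.mem_centralizer_iff.2 fun x hx => ?_)
          exact Subgroup.mem_centralizer_singleton_iff.1 (hP' hx)
        exact hk (Subtype.ext (Subgroup.mem_bot.1 (hcompl.disjoint.le_bot ⟨k.2, hkN⟩)))
      have hcard : Nat.card (P : Subgroup G) = Nat.card {y : K // y ≠ 1} := by
        haveI : Fintype K := Fintype.ofFinite _
        rw [hPc, Nat.card_eq_fintype_card, Fintype.card_subtype_compl, Fintype.card_subtype_eq,
          ← Nat.card_eq_fintype_card, hKc, Nat.add_sub_cancel]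
      obtain ⟨u, hu⟩ := ((Nat.bijective_iff_injective_and_card c).2 ⟨hinj, hcard⟩).2 ⟨l, hl⟩
      have e : (u : G) * (k : G) * (u : G)⁻¹ = (l : G) :=
        congrArg (fun y : {y : K // y ≠ 1} => ((y.1 : K) : G)) hu
      rw [← e]
      exact (MulEquiv.orderOf_eq (MulAut.conj (u : G)) (k : G)).symm
    haveI : Fact r.Prime := ⟨hr⟩
    haveI : Fact s.Prime := ⟨hs⟩
    obtain ⟨k, hk⟩ := exists_prime_orderOf_dvd_card' (G := K) r (hKc ▸ hr1)
    obtain ⟨l, hl⟩ := exists_prime_orderOf_dvd_card' (G := K) s (hKc ▸ hs1)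
    refine hrs ?_
    rw [← hk, ← hl, ← Subgroup.orderOf_coe k, ← Subgroup.orderOf_coe l]
    exact key k (fun e => hr.one_lt.ne' (hk.symm.trans (e ▸ orderOf_one))) l
      (fun e => hs.one_lt.ne' (hl.symm.trans (e ▸ orderOf_one)))

/-- A subgroup of index `k > 1` of a simple group `G` gives `|G| ≤ k!`; moreover the action on the
cosets is faithful. -/
theorem card_le_factorial_index {G : Type*} [Group G] [Finite G] [IsSimpleGroup G] (H : Subgroup G)
    (hH : H ≠ ⊤) : (MulAction.toPermHom G (G ⧸ H)).ker = ⊥ ∧ Nat.card G ≤ H.index.factorial := by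
  have hker : (MulAction.toPermHom G (G ⧸ H)).ker = ⊥ := by
    refine (Subgroup.Normal.eq_bot_or_eq_top (MonoidHom.normal_ker _)).resolve_right fun h => hH ?_
    rw [eq_top_iff, ← h, ← Subgroup.normalCore_eq_ker]
    exact Subgroup.normalCore_le H
  refine ⟨hker, ?_⟩
  rw [Subgroup.index, ← Nat.card_perm]
  exact Nat.card_le_card_of_injective _ ((MonoidHom.ker_eq_bot_iff _).1 hker)

variable {α : Type*} [Fintype α] [DecidableEq α]

omit [DecidableEq α] [Fintype α] in
theorem commute_of_normalize {g h1 h2 : Perm α} (e1 : h1 * g * h1⁻¹ ∈ Subgroup.zpowers g)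
    (e2 : h2 * g * h2⁻¹ ∈ Subgroup.zpowers g) : Commute (h1⁻¹ * h2⁻¹ * h1 * h2) g := by
  obtain ⟨i, hi⟩ := Subgroup.mem_zpowers_iff.1 e1
  obtain ⟨j, hj⟩ := Subgroup.mem_zpowers_iff.1 e2
  have a : MulAut.conj h1 g = g ^ i := hi.symm
  have b : MulAut.conj h2 g = g ^ j := hj.symm
  have e : MulAut.conj (h1 * h2) g = MulAut.conj (h2 * h1) g := by
    rw [map_mul, map_mul, MulAut.mul_apply, MulAut.mul_apply, b, map_zpow, a, map_zpow, b,
      ← zpow_mul, ← zpow_mul, mul_comm i j]
  rw [MulAut.conj_apply, MulAut.conj_apply] at e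
  show h1⁻¹ * h2⁻¹ * h1 * h2 * g = g * (h1⁻¹ * h2⁻¹ * h1 * h2)
  calc h1⁻¹ * h2⁻¹ * h1 * h2 * g
      = h1⁻¹ * h2⁻¹ * (h1 * h2 * g * (h1 * h2)⁻¹) * (h1 * h2) := by group
    _ = g * (h1⁻¹ * h2⁻¹ * h1 * h2) := by rw [e]; group

/-- Witt's argument: adjust an element preserving the fixed points of `g` to one normalising `⟨g⟩`. -/
theorem exists_normalizing_perm (G : Subgroup (Perm α)) {g : Perm α} (hg : g ∈ G) {p : ℕ}
    (hp : p.Prime) (hgo : orderOf g = p)
    (hK : ¬ p ^ 2 ∣ Nat.card ↥(G ⊓ fixingSubgroup (Perm α) ((g.supportᶜ : Finset α) : Set α)))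
    {h : Perm α} (hh : h ∈ G) (hinv : ∀ x, h x ∈ g.support ↔ x ∈ g.support) :
    ∃ f ∈ G, (∀ x ∉ g.support, f x = h x) ∧ f * g * f⁻¹ ∈ Subgroup.zpowers g := by
  classical
  haveI : Fact p.Prime := ⟨hp⟩
  set K := G ⊓ fixingSubgroup (Perm α) ((g.supportᶜ : Finset α) : Set α) with hKdef
  have hmemK : ∀ {f : Perm α}, f ∈ K ↔ f ∈ G ∧ ∀ x ∉ g.support, f x = x := by
    intro f
    simp [hKdef, mem_fixingSubgroup_iff]
  have hgK : g ∈ K := hmemK.2 ⟨hg, fun x hx => notMem_support.1 hx⟩
  have hz : h * g * h⁻¹ ∈ K := by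
    refine hmemK.2 ⟨G.mul_mem (G.mul_mem hh hg) (G.inv_mem hh), fun x hx => ?_⟩
    have h1 : h⁻¹ x ∉ g.support := fun e => hx (by simpa using (hinv _).2 e)
    rw [Perm.mul_apply, Perm.mul_apply, notMem_support.1 h1, Equiv.Perm.coe_inv, Equiv.apply_symm_apply]
  have hgo' : orderOf (⟨g, hgK⟩ : K) = p := by rw [Subgroup.orderOf_mk, hgo]
  have hzo : orderOf (⟨_, hz⟩ : K) = p := by
    rw [Subgroup.orderOf_mk, ← hgo]
    exact MulEquiv.orderOf_eq (MulAut.conj h) g
  have hfac : (Nat.card K).factorization p = 1 := by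
    have h1 := (hp.pow_dvd_iff_le_factorization Nat.card_pos.ne').1
      (show p ^ 1 ∣ Nat.card K by rw [pow_one, ← hgo']; exact orderOf_dvd_natCard _)
    have h2 : ¬ 2 ≤ (Nat.card K).factorization p := fun h =>
      hK ((hp.pow_dvd_iff_le_factorization Nat.card_pos.ne').2 h)
    omega
  let P : Sylow p K := Sylow.ofCard (Subgroup.zpowers ⟨g, hgK⟩)
    (by rw [Nat.card_zpowers, hgo', hfac, pow_one])
  obtain ⟨Q, hQ⟩ := (IsPGroup.of_card (p := p) (G := Subgroup.zpowers (⟨_, hz⟩ : K)) (n := 1)
    (by rw [Nat.card_zpowers, hzo, pow_one])).exists_le_sylow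
  obtain ⟨f, hf⟩ := MulAction.exists_smul_eq K Q P
  have hmem : MulAut.conj f (⟨_, hz⟩ : K) ∈ ((f • Q : Sylow p K) : Subgroup K) := by
    rw [Sylow.coe_subgroup_smul, Subgroup.pointwise_smul_def]
    exact Subgroup.mem_map_of_mem _ (hQ (Subgroup.mem_zpowers _))
  rw [hf] at hmem
  obtain ⟨i, hi⟩ := Subgroup.mem_zpowers_iff.1 (show MulAut.conj f (⟨_, hz⟩ : K) ∈
    Subgroup.zpowers (⟨g, hgK⟩ : K) from hmem)
  have hi' : g ^ i = (f : Perm α) * (h * g * h⁻¹) * (f : Perm α)⁻¹ := congrArg Subtype.val hi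
  refine ⟨(f : Perm α) * h, G.mul_mem (hmemK.1 f.2).1 hh, fun x hx => ?_,
    Subgroup.mem_zpowers_iff.2 ⟨i, ?_⟩⟩
  · rw [Perm.mul_apply, (hmemK.1 f.2).2 _ (fun e => hx ((hinv x).1 e))]
  · rw [hi']; group

/-- A primitive group with a cycle of prime length `p` fixing `k + 1` points is
`(k + 2)`-transitive. -/
theorem isMultiplyPretransitive_of_primitive_pCycle (G : Subgroup (Perm α))
    (hG : IsPreprimitive G α) {p k : ℕ} (hp : p.Prime) (hk : Fintype.card α = p + (k + 1))
    {g : Perm α} (hgc : g.IsCycle) (hgp : g.support.card = p) (hg : g ∈ G) :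
    IsMultiplyPretransitive G α (k + 2) := by
  classical
  have hscard : ((g.support : Set α)ᶜ).ncard = k + 1 := by
    rw [← Finset.coe_compl, Set.ncard_coe_finset, Finset.card_compl, hgp, hk]
    omega
  haveI : IsMultiplyPreprimitive G α (k + 2) := by
    refine hG.isMultiplyPreprimitive hscard ?_ ?_
    · rw [Nat.card_eq_fintype_card]; have := hp.two_le; omega
    have := Equiv.Perm.isPretransitive_of_isCycle_mem hgc hg
    apply IsPreprimitive.of_prime_card
    convert! hp
    rw [Nat.card_eq_fintype_card, Fintype.card_subtype, ← hgp]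
    apply congr_arg
    ext x
    simp [SubMulAction.mem_ofFixingSubgroup_iff]
  exact IsMultiplyPreprimitive.isMultiplyPretransitive ..

/-- `k`-transitivity divides the order by the number of `k`-tuples. -/
theorem descFactorial_dvd_card (G : Subgroup (Perm α)) (k : ℕ) (hk : k ≤ Fintype.card α)
    (hGk : IsMultiplyPretransitive G α k) : (Fintype.card α).descFactorial k ∣ Nat.card G := by
  haveI : IsPretransitive G (Fin k ↪ α) := hGk
  obtain ⟨e⟩ : Nonempty (Fin k ↪ α) := Function.Embedding.nonempty_of_card_le (by simpa using hk)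
  have h := @MulAction.index_stabilizer_of_transitive G (Fin k ↪ α) _ _ e hGk
  rw [Nat.card_eq_fintype_card, Fintype.card_embedding_eq, Fintype.card_fin] at h
  rw [← h]
  exact Subgroup.index_dvd_card _

end CfsgLib.PermPrimes
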