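import Mathlib

set_option autoImplicit false

namespace CfsgLib.PermPrimes

open Equiv Equiv.Perm

variable {α : Type*} [Fintype α] [DecidableEq α]

/-- A permutation commuting with a cycle factor `e` of `w` agrees on its support with a power
of `w`. -/
theorem exists_eq_zpow_on_factor {w c e : Perm α} (he : e ∈ w.cycleFactorsFinset)
    (hc : Commute c e) : ∃ i : ℤ, ∀ y ∈ e.support, c y = (w ^ i) y := by
  have hec : e.IsCycle := (mem_cycleFactorsFinset_iff.1 he).1
  obtain ⟨hc', h⟩ := hec.commute_iff.1 hc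
  obtain ⟨i, hi⟩ := Subgroup.mem_zpowers_iff.1 h
  refine ⟨i, fun y hy => ?_⟩
  have h1 : (e ^ i) y = c y := by rw [hi, ofSubtype_apply_of_mem _ hy]; rfl
  rw [← h1, cycle_is_cycleOf hy he, cycleOf_zpow_apply_self]

/-- If `w` of order `5` moves exactly ten points, the square of anything commuting with `w`
centralises each of its two cycles. -/
theorem commute_sq_factor {w c : Perm α} (hw : orderOf w = 5) (hs : w.support.card = 10)
    (hc : Commute c w) :
    (∀ e ∈ w.cycleFactorsFinset, Commute (c ^ 2) e) ∧ w.cycleFactorsFinset.card = 2 ∧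
      ∀ e ∈ w.cycleFactorsFinset, e.support.card = 5 := by
  obtain ⟨n, hn⟩ := cycleType_prime_order (σ := w) (by rw [hw]; norm_num)
  rw [hw] at hn
  have hsum := w.sum_cycleType
  rw [hn, Multiset.sum_replicate, hs, smul_eq_mul] at hsum
  have h2 : n + 1 = 2 := by omega
  rw [h2] at hn
  have hcard : w.cycleFactorsFinset.card = 2 := by
    have := congrArg Multiset.card hn
    rw [Multiset.card_replicate, cycleType_def, Multiset.card_map] at this
    exact this
  refine ⟨fun e he => ?_, hcard, fun e he => ?_⟩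
  · obtain ⟨e1, e2, hne, hE⟩ := Finset.card_eq_two.1 hcard
    have hcw : c * w * c⁻¹ = w := by rw [hc.eq, mul_inv_cancel_right]
    have hmem : ∀ f ∈ w.cycleFactorsFinset, c * f * c⁻¹ ∈ w.cycleFactorsFinset := by
      intro f hf
      have := (mem_cycleFactorsFinset_conj w c f).2 hf
      rwa [hcw] at this
    have hinj : ∀ f f' : Perm α, c * f * c⁻¹ = c * f' * c⁻¹ → f = f' := fun f f' h =>
      mul_left_cancel (mul_right_cancel h)
    have h1 := hmem e1 (by simp [hE])
    have h2' := hmem e2 (by simp [hE])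
    rw [hE, Finset.mem_insert, Finset.mem_singleton] at h1 h2' he
    have key : c * (c * e * c⁻¹) * c⁻¹ = e := by
      rcases h1 with h1 | h1
      · have h2'' : c * e2 * c⁻¹ = e2 :=
          h2'.resolve_left fun h => hne (hinj _ _ (h1.trans h.symm))
        rcases he with he | he <;> rw [he]
        · rw [h1, h1]
        · rw [h2'', h2'']
      · have h2'' : c * e2 * c⁻¹ = e1 :=
          h2'.resolve_right fun h => hne (hinj _ _ (h1.trans h.symm))
        rcases he with he | he <;> rw [he]
        · rw [h1, h2'']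
        · rw [h2'', h1]
    show c ^ 2 * e = e * c ^ 2
    rw [pow_two]
    conv_rhs => rw [← key]
    group
  · have : e.support.card ∈ w.cycleType := by
      rw [cycleType_def]
      exact Multiset.mem_map.2 ⟨e, he, rfl⟩
    rw [hn] at this
    exact Multiset.eq_of_mem_replicate this

theorem exists_factor_of_mem {w : Perm α} {y : α} (hy : y ∈ w.support) :
    ∃ e ∈ w.cycleFactorsFinset, y ∈ e.support := by
  refine ⟨w.cycleOf y, cycleOf_mem_cycleFactorsFinset_iff.2 hy, ?_⟩
  exact mem_support_cycleOf_iff.2 ⟨SameCycle.refl w y, hy⟩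

/-- The tenth power of anything commuting with `w` fixes the support of `w`. -/
theorem pow_ten_fix {w c : Perm α} (hw : orderOf w = 5) (hs : w.support.card = 10)
    (hc : Commute c w) {y : α} (hy : y ∈ w.support) : (c ^ 10) y = y := by
  obtain ⟨hsq, -, -⟩ := commute_sq_factor hw hs hc
  obtain ⟨e, he, hye⟩ := exists_factor_of_mem hy
  obtain ⟨i, hi⟩ := exists_eq_zpow_on_factor he (hsq e he)
  set d := c ^ 2 * (w ^ i)⁻¹ with hd
  have hcw : Commute (c ^ 2) ((w ^ i)⁻¹) := ((hc.pow_left 2).zpow_right i).inv_right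
  have hmem : ∀ z ∈ e.support, (w ^ i) z ∈ e.support := by
    intro z hz
    rw [← hi z hz]
    exact (mem_support_iff_of_commute (hsq e he) z).2 hz
  have hfix : ∀ z ∈ e.support, d z = z := by
    intro z hz
    have e1 : d = (w ^ i)⁻¹ * c ^ 2 := by rw [hd, hcw.eq]
    rw [e1, Perm.mul_apply, hi z hz, Perm.coe_inv, Equiv.symm_apply_apply]
  have h5 : (w : Perm α) ^ 5 = 1 := by rw [← hw]; exact pow_orderOf_eq_one w
  have e10 : c ^ 10 = d ^ 5 := by
    rw [hd, hcw.mul_pow, inv_pow, ← zpow_natCast (w ^ i) 5, ← zpow_mul, mul_comm, zpow_mul,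
      zpow_natCast, h5, one_zpow, inv_one, mul_one, ← pow_mul]
  rw [e10]
  exact pow_apply_eq_self_of_apply_eq_self (hfix y hye) 5

/-- A second element of order `5` in the centraliser gives a `5`-cycle. -/
theorem exists_five_cycle (G : Subgroup (Perm α)) {w f : Perm α} (hwG : w ∈ G) (hfG : f ∈ G)
    (hw : orderOf w = 5) (hs : w.support.card = 10) (hf10 : f ^ 5 = 1)
    (hfs : f.support ⊆ w.support) (hc : Commute f w) (hnot : f ∉ Subgroup.zpowers w) :
    ∃ g ∈ G, g.IsCycle ∧ g.support.card = 5 := by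
  obtain ⟨hsq, hcard, h5⟩ := commute_sq_factor hw hs hc
  obtain ⟨e, he⟩ : w.cycleFactorsFinset.Nonempty := Finset.card_pos.1 (by omega)
  have hfe : Commute f e := by
    have e3 : f = (f ^ 2) ^ 3 := by rw [← pow_mul, pow_succ f 5, hf10, one_mul]
    rw [e3]
    exact (hsq e he).pow_left 3
  obtain ⟨i, hi⟩ := exists_eq_zpow_on_factor he hfe
  set g := f * (w ^ i)⁻¹ with hg
  have hcw : Commute f ((w ^ i)⁻¹) := (hc.zpow_right i).inv_right
  have hgs : g.support ⊆ w.support \ e.support := by
    intro z hz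
    have e1 : g = (w ^ i)⁻¹ * f := by rw [hg, hcw.eq]
    rw [mem_support, e1, Perm.mul_apply] at hz
    rw [Finset.mem_sdiff]
    constructor
    · by_contra hzw
      have h1 : f z = z := notMem_support.1 fun h => hzw (hfs h)
      have h2 : (w ^ i) z = z := notMem_support.1 fun h => hzw (support_zpow_le w i h)
      apply hz
      rw [h1, Perm.coe_inv, Equiv.symm_apply_eq, h2]
    · intro hze
      apply hz
      rw [hi z hze, Perm.coe_inv, Equiv.symm_apply_apply]
  have hsub : e.support ⊆ w.support := mem_cycleFactorsFinset_support_le he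
  have hle : g.support.card ≤ 5 := by
    refine (Finset.card_le_card hgs).trans ?_
    rw [Finset.card_sdiff_of_subset hsub, hs, h5 e he]
  have hg5 : g ^ 5 = 1 := by
    have hw5 : w ^ 5 = 1 := by rw [← hw]; exact pow_orderOf_eq_one w
    rw [hg, hcw.mul_pow, hf10, one_mul, inv_pow, ← zpow_natCast (w ^ i) 5, ← zpow_mul, mul_comm,
      zpow_mul, zpow_natCast, hw5, one_zpow, inv_one]
  have hgne : g ≠ 1 := fun h => hnot (by
    rw [hg, mul_inv_eq_one] at h
    exact Subgroup.mem_zpowers_iff.2 ⟨i, h.symm⟩)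
  haveI : Fact (Nat.Prime 5) := ⟨by norm_num⟩
  have hgo : orderOf g = 5 := orderOf_eq_prime hg5 hgne
  have hgc : g.IsCycle := isCycle_of_prime_order (by rw [hgo]; norm_num) (by rw [hgo]; omega)
  exact ⟨g, G.mul_mem hfG (G.inv_mem (G.zpow_mem hwG i)), hgc, by rw [← hgc.orderOf, hgo]⟩

end CfsgLib.PermPrimes
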