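import Mathlib
import Cfsg.Agent.PermPrimes.Tools
import Cfsg.Agent.PermPrimes.TwoCycles

set_option autoImplicit false

namespace CfsgLib.PermPrimes

open Equiv Equiv.Perm MulAction

variable {α : Type*} [Fintype α] [DecidableEq α]

/-- A `2`-transitive group of degree `p + 2` and order `(p+2)(p+1)p` does not exist when `p + 1`
has two prime divisors. -/
theorem not_sharp_two_transitive (H : Subgroup (Perm α)) {p r s : ℕ} (hp : p.Prime)
    (hr : r.Prime) (hs : s.Prime) (hrs : r ≠ s) (hr1 : r ∣ p + 1) (hs1 : s ∣ p + 1)
    (hα : Fintype.card α = p + 2) (h2 : IsMultiplyPretransitive H α 2)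
    (hH : Nat.card H = (p + 2) * (p * (p + 1))) : False := by
  haveI := h2
  haveI : IsPretransitive H α := isPretransitive_of_is_two_pretransitive
  obtain ⟨a⟩ : Nonempty α := Fintype.card_pos_iff.1 (by omega)
  haveI : IsPretransitive (stabilizer H a) (SubMulAction.ofStabilizer H a) :=
    is_one_pretransitive_iff.1 ((SubMulAction.ofStabilizer.isMultiplyPretransitive (n := 1)).1 h2)
  haveI : FaithfulSMul (stabilizer H a) (SubMulAction.ofStabilizer H a) := ⟨fun {g g'} h => by
    apply Subtype.ext
    apply Subtype.ext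
    ext x
    by_cases hx : x = a
    · subst hx
      exact (g.2 : (g.1 : Perm α) x = x).trans (g'.2 : (g'.1 : Perm α) x = x).symm
    · exact congrArg Subtype.val (h ⟨x, hx⟩)⟩
  refine not_sharp_transitive (G := stabilizer H a) (X := SubMulAction.ofStabilizer H a) hp ?_ ?_
    hr hs hrs hr1 hs1
  · rw [SubMulAction.nat_card_ofStabilizer_eq, Nat.card_eq_fintype_card, hα]
    omega
  · have h1 := (stabilizer H a).card_mul_index
    rw [index_stabilizer_of_transitive, Nat.card_eq_fintype_card (α := α), hα, hH,
      Nat.mul_comm (p + 2)] at h1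
    exact Nat.eq_of_mul_eq_mul_right (by omega) h1

omit [DecidableEq α] in
theorem nat_card_alternating [DecidableEq α] [Nontrivial α] :
    2 * Nat.card (alternatingGroup α) = (Fintype.card α).factorial := by
  rw [two_mul_nat_card_alternatingGroup, Nat.card_perm, Nat.card_eq_fintype_card]

theorem iso_alternating_fin {d : ℕ} (hd : Fintype.card α = d) :
    Nonempty (alternatingGroup α ≃* alternatingGroup (Fin d)) :=
  ⟨Equiv.altCongrHom (Fintype.equivFinOfCardEq hd)⟩

/-- Degree six, with a five-cycle. -/
theorem deg_six (H : Subgroup (Perm α)) (hα : Fintype.card α = 6) (hA : H ≤ alternatingGroup α)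
    (hprim : IsPreprimitive H α) {g : Perm α} (hg : g ∈ H) (hgc : g.IsCycle)
    (hgp : g.support.card = 5) :
    ∃ d : ℕ, 5 ≤ d ∧ Nonempty (H ≃* alternatingGroup (Fin d)) := by
  classical
  haveI : Nontrivial α := Fintype.one_lt_card_iff_nontrivial.1 (by omega)
  haveI := alternatingGroup.isSimpleGroup (α := α) (by rw [Nat.card_eq_fintype_card]; omega)
  have h2 := isMultiplyPretransitive_of_primitive_pCycle H hprim (k := 0)
    (by norm_num : Nat.Prime 5) (by omega) hgc hgp hg
  have h30 := descFactorial_dvd_card H 2 (by omega) h2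
  rw [hα] at h30
  set K := H.subgroupOf (alternatingGroup α) with hK
  have hcardA : Nat.card (alternatingGroup α) = 360 := by
    have h := nat_card_alternating (α := α)
    rw [hα] at h
    simp only [Nat.factorial] at h
    omega
  have hKH : Nat.card K = Nat.card H := Nat.card_congr (Subgroup.subgroupOfEquivOfLe hA).toEquiv
  have hmul : Nat.card H * K.index = 360 := by rw [← hKH, Subgroup.card_mul_index, hcardA]
  by_cases htop : K = ⊤
  · have he : H = alternatingGroup α := le_antisymm hA (Subgroup.subgroupOf_eq_top.1 htop)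
    obtain ⟨e⟩ := iso_alternating_fin hα
    exact ⟨6, by omega, ⟨(MulEquiv.subgroupCongr he).trans e⟩⟩
  obtain ⟨hker, hfac⟩ := card_le_factorial_index K htop
  rw [hcardA] at hfac
  have h6 : 6 ≤ K.index := by
    by_contra h
    have h5 : K.index.factorial ≤ Nat.factorial 5 := Nat.factorial_le (by omega)
    simp only [Nat.factorial] at h5
    omega
  obtain ⟨t, ht⟩ := h30
  have ht' : 30 * t = Nat.card H := by
    rw [ht]
    rfl
  have htk : t * K.index = 12 := by
    have : 30 * (t * K.index) = 30 * 12 := by rw [← Nat.mul_assoc, ht', hmul]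
    omega
  have htle : t ≤ 2 := by
    by_contra h
    have : 3 * 6 ≤ t * K.index := Nat.mul_le_mul (by omega) h6
    omega
  interval_cases t
  · omega
  · exfalso
    haveI : IsPretransitive H α := hprim.toIsPretransitive
    exact not_sharp_transitive (G := H) (X := α) (p := 5) (r := 2) (s := 3) (by norm_num)
      (by rw [Nat.card_eq_fintype_card]; omega) (by omega) (by norm_num) (by norm_num)
      (by norm_num) (by norm_num) (by norm_num)
  · -- order 60 : the action on the other five cosets
    set ψ := MulAction.toPermHom (alternatingGroup α) (alternatingGroup α ⧸ K) with hψ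
    set q0 : alternatingGroup α ⧸ K := ((1 : alternatingGroup α) : alternatingGroup α ⧸ K) with hq0
    have hfix : ∀ k : K, ψ k q0 = q0 := fun k => by
      show (k : alternatingGroup α) • q0 = q0
      rw [hq0, Quotient.smul_mk, smul_eq_mul, mul_one]
      exact QuotientGroup.eq.2 (by simpa using k.2)
    have hiff : ∀ (k : K) (x), ψ k x ≠ q0 ↔ x ≠ q0 := fun k x => by
      rw [not_iff_not]
      constructor
      · intro h; exact (ψ k).injective (h.trans (hfix k).symm)
      · intro h; rw [h, hfix k]
    let φ : K →* Perm {x : alternatingGroup α ⧸ K // x ≠ q0} :=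
      { toFun := fun k => (ψ k).subtypePerm (hiff k)
        map_one' := by ext; simp
        map_mul' := fun k k' => by
          apply Equiv.ext
          intro x
          apply Subtype.ext
          show ψ ((k * k' : K) : alternatingGroup α) x.1 = ψ k (ψ k' x.1)
          rw [Subgroup.coe_mul, map_mul, Perm.mul_apply] }
    have hφ : Function.Injective φ := by
      intro k k' h
      apply Subtype.ext
      apply (MonoidHom.ker_eq_bot_iff _).1 hker
      show ψ k = ψ k'
      ext x
      by_cases hx : x = q0
      · rw [hx, hfix, hfix]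
      · exact congrArg Subtype.val (Equiv.congr_fun h ⟨x, hx⟩)
    haveI : Fintype (alternatingGroup α ⧸ K) := Fintype.ofFinite _
    have hc5 : Fintype.card {x : alternatingGroup α ⧸ K // x ≠ q0} = 5 := by
      rw [Fintype.card_subtype_compl, Fintype.card_subtype_eq, ← Nat.card_eq_fintype_card,
        ← Subgroup.index_eq_card]
      omega
    have hidx : φ.range.index = 2 := by
      have h := φ.range.card_mul_index
      rw [Nat.card_perm, Nat.card_eq_fintype_card (α := {x : alternatingGroup α ⧸ K // x ≠ q0}),
        hc5, ← Nat.card_congr (MonoidHom.ofInjective hφ).toEquiv, hKH] at h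
      simp only [Nat.factorial] at h
      have : 60 * φ.range.index = 60 * 2 := by
        rw [show (60 : ℕ) = Nat.card H by omega]
        omega
      omega
    have hrange := eq_alternatingGroup_of_index_eq_two hidx
    obtain ⟨e⟩ := iso_alternating_fin hc5
    exact ⟨5, le_rfl, ⟨((Subgroup.subgroupOfEquivOfLe hA).symm.trans
      (MonoidHom.ofInjective hφ)).trans ((MulEquiv.subgroupCongr hrange).trans e)⟩⟩

/-- Degree seven, with a five-cycle. -/
theorem deg_seven (H : Subgroup (Perm α)) (hα : Fintype.card α = 7) (hA : H ≤ alternatingGroup α)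
    (hprim : IsPreprimitive H α) {g : Perm α} (hg : g ∈ H) (hgc : g.IsCycle)
    (hgp : g.support.card = 5) : H = alternatingGroup α := by
  classical
  haveI : Nontrivial α := Fintype.one_lt_card_iff_nontrivial.1 (by omega)
  haveI := alternatingGroup.isSimpleGroup (α := α) (by rw [Nat.card_eq_fintype_card]; omega)
  have h3 := isMultiplyPretransitive_of_primitive_pCycle H hprim (k := 1)
    (by norm_num : Nat.Prime 5) (by omega) hgc hgp hg
  have h210 := descFactorial_dvd_card H 3 (by omega) h3
  rw [hα] at h210
  set K := H.subgroupOf (alternatingGroup α) with hK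
  by_contra hne
  have htop : K ≠ ⊤ := fun h => hne (le_antisymm hA (Subgroup.subgroupOf_eq_top.1 h))
  have hcardA : Nat.card (alternatingGroup α) = 2520 := by
    have h := nat_card_alternating (α := α)
    rw [hα] at h
    simp only [Nat.factorial] at h
    omega
  have hmul : Nat.card H * K.index = 2520 := by
    rw [← hcardA, ← K.card_mul_index, Nat.card_congr (Subgroup.subgroupOfEquivOfLe hA).toEquiv]
  obtain ⟨-, hfac⟩ := card_le_factorial_index K htop
  rw [hcardA] at hfac
  have h7 : 7 ≤ K.index := by
    by_contra h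
    have h6 : K.index.factorial ≤ Nat.factorial 6 := Nat.factorial_le (by omega)
    simp only [Nat.factorial] at h6
    omega
  obtain ⟨t, ht⟩ := h210
  have ht' : 210 * t = Nat.card H := by
    rw [ht]
    rfl
  have htk : t * K.index = 12 := by
    have : 210 * (t * K.index) = 210 * 12 := by rw [← Nat.mul_assoc, ht', hmul]
    omega
  have htle : t ≤ 1 := by
    by_contra h
    have : 2 * 7 ≤ t * K.index := Nat.mul_le_mul (by omega) h7
    omega
  interval_cases t
  · omega
  · haveI : IsMultiplyPretransitive H α 3 := h3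
    exact not_sharp_two_transitive H (p := 5) (r := 2) (s := 3) (by norm_num) (by norm_num)
      (by norm_num) (by norm_num) (by norm_num) (by norm_num) (by omega)
      (isMultiplyPretransitive_of_le (G := H) (α := α) (n := 3) (by omega)
        (by rw [Nat.card_eq_fintype_card]; omega)) (by omega)

theorem eq_zpow_of_commute_of_support_le {g f : Perm α} (hgc : g.IsCycle) (hc : Commute f g)
    (hs : f.support ⊆ g.support) : f ∈ Subgroup.zpowers g := by
  obtain ⟨hc', h⟩ := hgc.commute_iff.1 hc
  rwa [ofSubtype_subtypePerm hc' (fun x hx => hs (mem_support.2 hx))] at h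

/-- Degree thirteen, with an eleven-cycle. -/
theorem deg_thirteen (H : Subgroup (Perm α)) (hα : Fintype.card α = 13)
    (hA : H ≤ alternatingGroup α) (hprim : IsPreprimitive H α) {g : Perm α} (hg : g ∈ H)
    (hgc : g.IsCycle) (hgp : g.support.card = 11) : H = alternatingGroup α := by
  classical
  haveI : Fact (Nat.Prime 11) := ⟨by norm_num⟩
  haveI h3 : IsMultiplyPretransitive H α 3 := isMultiplyPretransitive_of_primitive_pCycle H hprim
    (k := 1) (by norm_num : Nat.Prime 11) (by omega) hgc hgp hg
  have hgo : orderOf g = 11 := by rw [hgc.orderOf, hgp]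
  set K := H ⊓ fixingSubgroup (Perm α) ((g.supportᶜ : Finset α) : Set α) with hKdef
  have hmemK : ∀ {f : Perm α}, f ∈ K ↔ f ∈ H ∧ ∀ x ∉ g.support, f x = x := by
    intro f
    simp [hKdef, mem_fixingSubgroup_iff]
  have hKs : ∀ f ∈ K, f.support ⊆ g.support := fun f hf x hx => by
    by_contra h
    exact (mem_support.1 hx) ((hmemK.1 hf).2 x h)
  have hgK : g ∈ K := hmemK.2 ⟨hg, fun x hx => notMem_support.1 hx⟩
  have hKdvd : Nat.card K ∣ Nat.factorial 11 := by
    let φ : K →* Perm {x // x ∈ g.support} :=
      { toFun := fun f => f.1.subtypePerm (Equiv.Perm.isInvariant_of_support_le (hKs f f.2))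
        map_one' := by ext; rfl
        map_mul' := fun f f' => by ext; rfl }
    have hφ : Function.Injective φ := by
      intro f f' h
      apply Subtype.ext
      ext x
      by_cases hx : x ∈ g.support
      · exact congrArg Subtype.val (Equiv.congr_fun h ⟨x, hx⟩)
      · rw [notMem_support.1 (fun e => hx (hKs f f.2 e)),
          notMem_support.1 (fun e => hx (hKs f' f'.2 e))]
    have h := Subgroup.card_dvd_of_injective φ hφ
    rwa [Nat.card_perm, Nat.card_eq_fintype_card (α := {x // x ∈ g.support}), Fintype.card_coe,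
      hgp] at h
  have h121 : ¬ 11 ^ 2 ∣ Nat.card K := fun h => by
    have := h.trans hKdvd
    norm_num [Nat.factorial] at this
  set g' : K := ⟨g, hgK⟩ with hg'
  have hgo' : orderOf g' = 11 := by rw [hg', Subgroup.orderOf_mk, hgo]
  have hfac : (Nat.card K).factorization 11 = 1 := by
    have hp : Nat.Prime 11 := by norm_num
    have h1 := (hp.pow_dvd_iff_le_factorization Nat.card_pos.ne').1
      (show 11 ^ 1 ∣ Nat.card K by rw [pow_one, ← hgo']; exact orderOf_dvd_natCard _)
    have h2 : ¬ 2 ≤ (Nat.card K).factorization 11 := fun h =>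
      h121 ((hp.pow_dvd_iff_le_factorization Nat.card_pos.ne').2 h)
    omega
  let P : Sylow 11 K := Sylow.ofCard (Subgroup.zpowers g')
    (by rw [Nat.card_zpowers, hgo', hfac, pow_one])
  have hPz : (P : Subgroup K) = Subgroup.zpowers g' := rfl
  by_cases hN : Subgroup.normalizer ((P : Subgroup K) : Set K) ≤
      Subgroup.centralizer ((P : Subgroup K) : Set K)
  · -- then `K = ⟨g⟩` and `H` is sharply `3`-transitive
    exfalso
    set T := (MonoidHom.transferSylow P hN).ker with hT
    have hcompl : T.IsComplement' P := MonoidHom.ker_transferSylow_isComplement' P hN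
    have hTcop : ¬ 11 ∣ Nat.card T := MonoidHom.not_dvd_card_ker_transferSylow P hN
    have hTbot : T = ⊥ := by
      rw [Subgroup.eq_bot_iff_forall]
      intro t ht
      apply Subtype.ext
      ext x
      by_cases hx : x ∈ g.support
      swap
      · exact (hmemK.1 t.2).2 x hx
      show (t : Perm α) x = x
      by_contra hne
      -- the orbit of `x` under `T` is a block for `⟨g⟩`
      refine hTcop ?_
      let Y := {y // y ∈ g.support}
      letI actK : MulAction K Y :=
        { smul := fun f y => ⟨(f : Perm α) y.1,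
            (Equiv.Perm.isInvariant_of_support_le (hKs f f.2) y.1).2 y.2⟩
          one_smul := fun y => rfl
          mul_smul := fun f f' y => rfl }
      haveI : IsPretransitive K Y := ⟨fun y z => by
        obtain ⟨i, hi⟩ := hgc.sameCycle (mem_support.1 y.2) (mem_support.1 z.2)
        refine ⟨g' ^ i, Subtype.ext ?_⟩
        show ((g' ^ i : K) : Perm α) y.1 = z.1
        rw [Subgroup.coe_zpow, hg']
        exact hi⟩
      haveI : IsPreprimitive K Y := IsPreprimitive.of_prime_card (by
        rw [Nat.card_eq_fintype_card, Fintype.card_coe, hgp]; norm_num)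
      haveI : T.Normal := MonoidHom.normal_ker _
      have htr : IsPretransitive T Y := by
        apply IsQuasiPreprimitive.isPretransitive_of_normal (G := K)
        intro h
        have h1 : (⟨x, hx⟩ : Y) ∈ fixedPoints T Y := by rw [h]; exact Set.mem_univ _
        exact hne (congrArg Subtype.val (h1 ⟨t, ht⟩))
      have h11 := @MulAction.index_stabilizer_of_transitive T Y _ _ ⟨x, hx⟩ htr
      rw [Nat.card_eq_fintype_card, Fintype.card_coe, hgp] at h11
      rw [← h11]
      exact Subgroup.index_dvd_card _
    have hKc : Nat.card K = 11 := by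
      have := hcompl.card_mul_card
      rw [hTbot, Subgroup.card_bot, hPz, Nat.card_zpowers, hgo', one_mul] at this
      exact this.symm
    haveI h2 : IsMultiplyPretransitive H α 2 := isMultiplyPretransitive_of_le (G := H) (α := α)
      (n := 3) (by omega) (by rw [Nat.card_eq_fintype_card]; omega)
    have hc2 : (g.supportᶜ).card = 2 := by rw [Finset.card_compl, hgp, hα]
    obtain ⟨a, b, hab, hΔ⟩ := Finset.card_eq_two.1 hc2
    let e : Fin 2 ↪ α := ⟨![a, b], by
      intro i j h
      fin_cases i <;> fin_cases j <;> simp_all⟩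
    have h156 := @MulAction.index_stabilizer_of_transitive H (Fin 2 ↪ α) _ _ e h2
    rw [Nat.card_eq_fintype_card, Fintype.card_embedding_eq, Fintype.card_fin, hα] at h156
    have hstab : Nat.card (stabilizer H e) = Nat.card K := by
      refine Nat.card_congr
        { toFun := fun h => ⟨(h.1 : Perm α), hmemK.2 ⟨h.1.2, fun x hx => ?_⟩⟩
          invFun := fun f => ⟨⟨f.1, (hmemK.1 f.2).1⟩, ?_⟩
          left_inv := fun h => rfl
          right_inv := fun f => rfl }
      · have hx' : x ∈ g.supportᶜ := Finset.mem_compl.2 hx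
        rw [hΔ, Finset.mem_insert, Finset.mem_singleton] at hx'
        have h0 := DFunLike.congr_fun (h.2 : (h.1 : H) • e = e) 0
        have h1 := DFunLike.congr_fun (h.2 : (h.1 : H) • e = e) 1
        rcases hx' with rfl | rfl
        · exact h0
        · exact h1
      · refine DFunLike.ext _ _ fun i => ?_
        have hmem : e i ∉ g.support := by
          rw [← Finset.mem_compl, hΔ, Finset.mem_insert, Finset.mem_singleton]
          fin_cases i
          · exact Or.inl rfl
          · exact Or.inr rfl
        exact (hmemK.1 f.2).2 _ hmem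
    have hH : Nat.card H = (11 + 2) * (11 * (11 + 1)) := by
      rw [← (stabilizer H e).card_mul_index, h156, hstab, hKc]
      rfl
    exact not_sharp_two_transitive H (p := 11) (r := 2) (s := 3) (by norm_num) (by norm_num)
      (by norm_num) (by norm_num) (by norm_num) (by norm_num) (by omega) h2 hH
  · -- an element inducing a non-trivial automorphism of `⟨g⟩`
    obtain ⟨u, huN, huC⟩ := SetLike.not_le_iff_exists.1 hN
    have hnc : ¬ Commute (u : Perm α) g := fun h => huC (by
      rw [hPz, Subgroup.mem_centralizer_iff]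
      intro y hy
      obtain ⟨i, rfl⟩ := Subgroup.mem_zpowers_iff.1 hy
      apply Subtype.ext
      exact ((h.zpow_right i).eq).symm)
    obtain ⟨j, hj⟩ : ∃ j : ℤ, (u : Perm α) * g * (u : Perm α)⁻¹ = g ^ j := by
      have h := (Subgroup.mem_normalizer_iff.1 huN g').1 (by rw [hPz]; exact Subgroup.mem_zpowers g')
      rw [hPz] at h
      obtain ⟨j, hj⟩ := Subgroup.mem_zpowers_iff.1 h
      exact ⟨j, (congrArg Subtype.val hj).symm⟩
    have hpow : ∀ n : ℕ, (u : Perm α) ^ n * g * ((u : Perm α) ^ n)⁻¹ = g ^ (j ^ n) := by
      intro n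
      induction n with
      | zero => simp
      | succ n ih =>
        rw [pow_succ' (u : Perm α)]
        calc (u : Perm α) * (u : Perm α) ^ n * g * ((u : Perm α) * (u : Perm α) ^ n)⁻¹
            = MulAut.conj (u : Perm α) ((u : Perm α) ^ n * g * ((u : Perm α) ^ n)⁻¹) := by
              rw [MulAut.conj_apply]; group
          _ = g ^ j ^ (n + 1) := by
              rw [ih, map_zpow, MulAut.conj_apply, hj, ← zpow_mul, pow_succ' j n]
    have hj10 : (11 : ℤ) ∣ j ^ 10 - 1 := by
      refine (ZMod.intCast_zmod_eq_zero_iff_dvd (j ^ 10 - 1) 11).1 ?_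
      rw [Int.cast_sub, Int.cast_pow, Int.cast_one]
      have hj0 : ((j : ℤ) : ZMod 11) ≠ 0 := by
        intro h
        rw [ZMod.intCast_zmod_eq_zero_iff_dvd] at h
        obtain ⟨k, rfl⟩ := h
        have : g ^ ((11 : ℤ) * k) = 1 := by
          rw [zpow_mul, show g ^ (11 : ℤ) = g ^ 11 from zpow_natCast g 11, ← hgo, pow_orderOf_eq_one,
            one_zpow]
        rw [Nat.cast_ofNat, this, conj_eq_one_iff] at hj
        exact hgc.ne_one hj
      rw [ZMod.pow_card_sub_one_eq_one hj0, sub_self]
    have hcomm10 : Commute ((u : Perm α) ^ 10) g := by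
      have h := hpow 10
      have e : g ^ (j ^ 10) = g := by
        obtain ⟨k, hk⟩ := hj10
        have : j ^ 10 = 1 + 11 * k := by omega
        rw [this, zpow_add, zpow_one, zpow_mul, show g ^ (11 : ℤ) = g ^ 11 from zpow_natCast g 11,
          ← hgo, pow_orderOf_eq_one, one_zpow, mul_one]
      rw [e, mul_inv_eq_iff_eq_mul] at h
      exact h
    set w0 : Perm α := (u : Perm α) ^ 11 with hw0
    have hw0c : ¬ Commute w0 g := fun h => hnc (by
      have e : (u : Perm α) = w0 * ((u : Perm α) ^ 10)⁻¹ := by rw [hw0]; group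
      rw [e]
      exact h.mul_left hcomm10.inv_left)
    have hw010 : w0 ^ 10 = 1 := by
      have h := eq_zpow_of_commute_of_support_le hgc hcomm10
        ((support_pow_le _ _).trans (hKs u u.2))
      obtain ⟨i, hi⟩ := Subgroup.mem_zpowers_iff.1 h
      rw [hw0, ← pow_mul, Nat.mul_comm, pow_mul, ← hi, ← zpow_natCast (g ^ i), ← zpow_mul,
        mul_comm i, zpow_mul, zpow_natCast, ← hgo, pow_orderOf_eq_one, one_zpow]
    obtain ⟨q, k, hq, hqk, hwnc⟩ : ∃ q k : ℕ, (q = 2 ∨ q = 5) ∧ k * q = 110 ∧
        ¬ Commute ((u : Perm α) ^ k) g := by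
      by_contra hall
      simp only [not_exists, not_and, not_not] at hall
      have h5 := hall 2 55 (Or.inl rfl) (by norm_num)
      have h2 := hall 5 22 (Or.inr rfl) (by norm_num)
      refine hw0c ?_
      have e : w0 = ((u : Perm α) ^ 22) ^ 3 * ((u : Perm α) ^ 55)⁻¹ := by rw [hw0]; group
      rw [e]
      exact (h2.pow_left 3).mul_left h5.inv_left
    set w : Perm α := (u : Perm α) ^ k with hw
    have hwq : w ^ q = 1 := by
      rw [hw, ← pow_mul, hqk, show (110 : ℕ) = 11 * 10 from rfl, pow_mul]
      exact hw010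
    have hwne : w ≠ 1 := fun h => hwnc (h ▸ Commute.one_left g)
    have hqp : q.Prime := by rcases hq with rfl | rfl <;> norm_num
    haveI : Fact q.Prime := ⟨hqp⟩
    have hwo : orderOf w = q := orderOf_eq_prime hwq hwne
    have hwK : w ∈ K := by rw [hw]; exact K.pow_mem u.2 k
    have huniq : ∀ z ∈ g.support, ∀ z' ∈ g.support, w z = z → w z' = z' → z = z' := by
      intro z hz z' hz' e e'
      obtain ⟨m, rfl⟩ := hgc.sameCycle (mem_support.1 hz) (mem_support.1 hz')
      have hwg : w * g ^ m * w⁻¹ = g ^ (j ^ k * m) := by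
        rw [zpow_mul, ← hpow k, ← MulAut.conj_apply, ← MulAut.conj_apply, map_zpow]
      have h1 : (g ^ (j ^ k * m)) z = (g ^ m) z := by
        rw [← hwg, Perm.mul_apply, Perm.mul_apply,
          show w⁻¹ z = z from Equiv.Perm.inv_eq_iff_eq.2 e.symm, e']
      by_cases hm : (11 : ℤ) ∣ m
      · obtain ⟨l, rfl⟩ := hm
        rw [zpow_mul, show g ^ (11 : ℤ) = g ^ 11 from zpow_natCast g 11, ← hgo, pow_orderOf_eq_one,
          one_zpow, Perm.one_apply]
      · exfalso
        have hd : ¬ (11 : ℤ) ∣ (j ^ k * m - m) := by
          intro h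
          rw [show j ^ k * m - m = (j ^ k - 1) * m by ring] at h
          rcases (Nat.prime_iff_prime_int.1 (by norm_num : Nat.Prime 11)).dvd_or_dvd h with h | h
          · refine hwnc ?_
            have e1 : g ^ (j ^ k) = g := by
              obtain ⟨l, hl⟩ := h
              rw [show j ^ k = 1 + (11 : ℕ) * l by omega, zpow_add, zpow_one, zpow_mul,
                zpow_natCast, ← hgo, pow_orderOf_eq_one, one_zpow, mul_one]
            have h' := hpow k
            rw [e1, mul_inv_eq_iff_eq_mul] at h'
            exact h'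
          · exact hm h
        have h2 : (g ^ (j ^ k * m - m)) z = z := by
          rw [sub_eq_neg_add, zpow_add, Perm.mul_apply, h1, ← Perm.mul_apply, ← zpow_add,
            neg_add_cancel, zpow_zero, Perm.one_apply]
        have hcop : IsCoprime (j ^ k * m - m) (11 : ℤ) :=
          ((Nat.prime_iff_prime_int.1 (by norm_num : Nat.Prime 11)).coprime_iff_not_dvd.2 hd).symm
        obtain ⟨a, b, hab⟩ := hcop
        refine mem_support.1 hz ?_
        have h3 : g = (g ^ (j ^ k * m - m)) ^ a := by
          rw [← zpow_mul]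
          conv_lhs => rw [← zpow_one g, ← hab]
          rw [zpow_add, mul_comm b, zpow_mul g 11 b, show g ^ (11 : ℤ) = g ^ 11 from zpow_natCast g 11,
            ← hgo, pow_orderOf_eq_one, one_zpow, mul_one, mul_comm]
        rw [h3]
        exact zpow_apply_eq_self_of_apply_eq_self h2 a
    have hws : w.support ⊆ g.support := hKs w hwK
    have hfix1 : (g.support \ w.support).card ≤ 1 := Finset.card_le_one.2 fun z hz z' hz' => by
      rw [Finset.mem_sdiff] at hz hz'
      exact huniq z hz.1 z' hz'.1 (notMem_support.1 hz.2) (notMem_support.1 hz'.2)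
    rw [Finset.card_sdiff_of_subset hws, hgp] at hfix1
    have hwle : w.support.card ≤ 11 := hgp ▸ Finset.card_le_card hws
    obtain ⟨n, hn⟩ := cycleType_prime_order (σ := w) (by rw [hwo]; exact hqp)
    rw [hwo] at hn
    have hsum := w.sum_cycleType
    rw [hn, Multiset.sum_replicate, smul_eq_mul] at hsum
    rcases hq with rfl | rfl
    · exfalso
      have hn4 : n = 4 := by omega
      have hsg : sign w = 1 := Equiv.Perm.mem_alternatingGroup.1 (hA (hmemK.1 hwK).1)
      rw [sign_of_cycleType, hn, hn4] at hsg
      revert hsg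
      decide
    have hs10 : w.support.card = 10 := by omega
    have hwH : w ∈ H := (hmemK.1 hwK).1
    refine le_antisymm hA ?_
    set L := H ⊓ fixingSubgroup (Perm α) ((w.supportᶜ : Finset α) : Set α) with hL
    have hmemL : ∀ {f : Perm α}, f ∈ L ↔ f ∈ H ∧ ∀ x ∉ w.support, f x = x := by
      intro f
      simp [hL, mem_fixingSubgroup_iff]
    have hwL : w ∈ L := hmemL.2 ⟨hwH, fun x hx => notMem_support.1 hx⟩
    by_cases h25 : 5 ^ 2 ∣ Nat.card L
    · set w' : L := ⟨w, hwL⟩ with hw'
      have hw'o : orderOf w' = 5 := by rw [hw', Subgroup.orderOf_mk, hwo]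
      obtain ⟨Q0, hQ0, hwQ⟩ := Sylow.exists_subgroup_card_pow_prime_le 5 h25
        (Subgroup.zpowers w') (n := 1) (by rw [Nat.card_zpowers, hw'o, pow_one]) (by omega)
      haveI := IsPGroup.isMulCommutative_of_card_eq_prime_sq (p := 5) hQ0
      obtain ⟨f, hf, hfn⟩ : ∃ f ∈ Q0, f ∉ Subgroup.zpowers w' := by
        by_contra hall
        simp only [not_exists, not_and, not_not] at hall
        have h := Subgroup.card_le_of_le (show Q0 ≤ Subgroup.zpowers w' from hall)
        rw [hQ0, Nat.card_zpowers, hw'o] at h
        norm_num at h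
      have hcw : Commute (f : Perm α) w := by
        have h := (IsMulCommutative.is_comm (M := Q0)).comm ⟨f, hf⟩ ⟨w', hwQ (Subgroup.mem_zpowers w')⟩
        exact congrArg (fun z : Q0 => ((z : L) : Perm α)) h
      have hfs : (f : Perm α).support ⊆ w.support := fun x hx => by
        by_contra h
        exact (mem_support.1 hx) ((hmemL.1 f.2).2 x h)
      have hf10 : (f : Perm α) ^ 10 = 1 := by
        ext x
        by_cases hx : x ∈ w.support
        · exact pow_ten_fix hwo hs10 hcw hx
        · exact pow_apply_eq_self_of_apply_eq_self ((hmemL.1 f.2).2 x hx) 10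
      have hf25 : (f : Perm α) ^ 25 = 1 := by
        have h : (⟨f, hf⟩ : Q0) ^ Nat.card Q0 = 1 := pow_card_eq_one'
        rw [hQ0] at h
        exact congrArg (fun z : Q0 => ((z : L) : Perm α)) h
      have hf5 : (f : Perm α) ^ 5 = 1 := by
        have e : (f : Perm α) ^ 5 = (((f : Perm α) ^ 10) ^ 3) * ((f : Perm α) ^ 25)⁻¹ := by group
        rw [e, hf10, hf25]
        simp
      have hfn' : (f : Perm α) ∉ Subgroup.zpowers w := fun h => by
        obtain ⟨i, hi⟩ := Subgroup.mem_zpowers_iff.1 h
        exact hfn (Subgroup.mem_zpowers_iff.2 ⟨i, Subtype.ext (by rw [Subgroup.coe_zpow]; exact hi)⟩)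
      obtain ⟨c5, hc5, hc5c, hc5s⟩ := exists_five_cycle H hwH (hmemL.1 f.2).1 hwo hs10 hf5 hfs hcw hfn'
      exact alternatingGroup_le_of_primitive_pCycle H hprim (p := 5) (by norm_num) (by omega)
        hc5c hc5s hc5
    · obtain ⟨a, b, c, hab, hac, hbc, hΔ⟩ := Finset.card_eq_three.1
        (show (w.supportᶜ).card = 3 by rw [Finset.card_compl, hs10, hα])
      let e : Fin 3 ↪ α := ⟨![a, b, c], by
        intro i j h
        fin_cases i <;> fin_cases j <;> simp_all⟩
      have hrange : ∀ x, x ∉ w.support → ∃ i, e i = x := by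
        intro x hx
        rw [← Finset.mem_compl, hΔ, Finset.mem_insert, Finset.mem_insert, Finset.mem_singleton] at hx
        rcases hx with rfl | rfl | rfl
        exacts [⟨0, rfl⟩, ⟨1, rfl⟩, ⟨2, rfl⟩]
      have key : ∀ x y : α, x ∉ w.support → y ∉ w.support → ∃ h ∈ H,
          (∀ z ∉ w.support, h z = Equiv.swap x y z) ∧ h * w * h⁻¹ ∈ Subgroup.zpowers w := by
        intro x y hx hy
        obtain ⟨⟨h, hhH⟩, hh⟩ :=
          @exists_smul_eq H (Fin 3 ↪ α) _ h3 e (e.trans (Equiv.swap x y).toEmbedding)
        have hh' : ∀ z ∉ w.support, h z = Equiv.swap x y z := by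
          intro z hz
          obtain ⟨i, rfl⟩ := hrange z hz
          exact DFunLike.congr_fun hh i
        have hswap : ∀ z, z ∉ w.support → Equiv.swap x y z ∉ w.support := by
          intro z hz
          rw [Equiv.swap_apply_def]
          split_ifs <;> assumption
        have hinv : ∀ z, h z ∈ w.support ↔ z ∈ w.support := by
          intro z
          refine ⟨fun hz => ?_, fun hz => ?_⟩
          · by_contra h0
            rw [hh' z h0] at hz
            exact hswap z h0 hz
          · by_contra h0
            have h1 := hh' _ (hswap _ h0)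
            rw [Equiv.swap_apply_self] at h1
            exact hswap _ h0 ((h.injective h1).symm ▸ hz)
        obtain ⟨f, hfH, hfx, hfw⟩ := exists_normalizing_perm H hwH (p := 5) (by norm_num) hwo h25
          hhH hinv
        exact ⟨f, hfH, fun z hz => (hfx z hz).trans (hh' z hz), hfw⟩
      have ha : a ∉ w.support := Finset.mem_compl.1 (by rw [hΔ]; simp)
      have hb : b ∉ w.support := Finset.mem_compl.1 (by rw [hΔ]; simp)
      have hc : c ∉ w.support := Finset.mem_compl.1 (by rw [hΔ]; simp)
      obtain ⟨h1, h1H, h1Δ, h1w⟩ := key a b ha hb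
      obtain ⟨h2, h2H, h2Δ, h2w⟩ := key a c ha hc
      set cm : Perm α := h1⁻¹ * h2⁻¹ * h1 * h2 with hcm
      set s3 : Perm α := Equiv.swap a b * Equiv.swap a c with hs3
      have hs3c : s3.IsThreeCycle := isThreeCycle_swap_mul_swap_same hab hac hbc
      have hsw : ∀ u v : α, u ∉ w.support → v ∉ w.support →
          ∀ y, y ∉ w.support → Equiv.swap u v y ∉ w.support := by
        intro u v hu hv y hy
        rw [Equiv.swap_apply_def]
        split_ifs <;> assumption
      have hinvs : ∀ (h : Perm α) (u v : α), u ∉ w.support → v ∉ w.support →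
          (∀ y ∉ w.support, h y = Equiv.swap u v y) →
          ∀ y ∉ w.support, h⁻¹ y = Equiv.swap u v y := by
        intro h u v hu hv hh y hy
        rw [Equiv.Perm.inv_eq_iff_eq, hh _ (hsw u v hu hv y hy), Equiv.swap_apply_self]
      have hs3m : ∀ y, y ∉ w.support → s3 y ∉ w.support := fun y hy => by
        rw [hs3, Perm.mul_apply]
        exact hsw a b ha hb _ (hsw a c ha hc y hy)
      have hcmΔ : ∀ y ∉ w.support, cm y = (s3 ^ 2) y := by
        intro y hy
        rw [hcm, pow_two]
        simp only [Perm.mul_apply]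
        rw [h2Δ y hy, h1Δ _ (hsw a c ha hc y hy),
          hinvs h2 a c ha hc h2Δ _ (hsw a b ha hb _ (hsw a c ha hc y hy)),
          hinvs h1 a b ha hb h1Δ _ (hsw a c ha hc _ (hsw a b ha hb _ (hsw a c ha hc y hy)))]
        simp [hs3]
      have hpowΔ : ∀ n : ℕ, ∀ y ∉ w.support, (cm ^ n) y = ((s3 ^ 2) ^ n) y ∧
          (cm ^ n) y ∉ w.support := by
        intro n
        induction n with
        | zero => intro y hy; exact ⟨rfl, hy⟩
        | succ n ih =>
          intro y hy
          have hy' : cm y ∉ w.support := by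
            rw [hcmΔ y hy, pow_two, Perm.mul_apply]
            exact hs3m _ (hs3m y hy)
          have ih' := ih _ hy'
          rw [hcmΔ y hy, ← Perm.mul_apply (f := (s3 ^ 2) ^ n), ← pow_succ] at ih'
          rw [pow_succ cm n, Perm.mul_apply, hcmΔ y hy]
          exact ih'
      have hcmw : Commute cm w := commute_of_normalize h1w h2w
      have hs33 : s3 ^ 3 = 1 := by rw [← hs3c.orderOf]; exact pow_orderOf_eq_one s3
      have h10 : cm ^ 10 = s3 ^ 2 := by
        ext y
        by_cases hy : y ∈ w.support
        · rw [pow_ten_fix hwo hs10 hcmw hy]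
          have hne : ∀ z, z ∉ w.support → y ≠ z := fun z hz e => hz (e ▸ hy)
          symm
          apply pow_apply_eq_self_of_apply_eq_self
          rw [hs3, Perm.mul_apply, Equiv.swap_apply_of_ne_of_ne (hne a ha) (hne c hc),
            Equiv.swap_apply_of_ne_of_ne (hne a ha) (hne b hb)]
        · rw [(hpowΔ 10 y hy).1, ← pow_mul, show 2 * 10 = 3 * 6 + 2 from rfl, pow_add, pow_mul, hs33,
            one_pow, one_mul]
      refine alternatingGroup_le_of_isPreprimitive_of_isThreeCycle_mem hprim (g := cm ^ 10) ?_ ?_
      · rw [h10, pow_two]; exact hs3c.isThreeCycle_sq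
      · exact H.pow_mem (H.mul_mem (H.mul_mem (H.mul_mem (H.inv_mem h1H) (H.inv_mem h2H)) h1H) h2H) 10

end CfsgLib.PermPrimes
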