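import Mathlib

set_option autoImplicit false

namespace CfsgLib.PermPrimes

open Finset

theorem twoPrimes_step {n l p q : ℕ} (hp : p.Prime) (hq : q.Prime) (hgap : p + 3 ≤ q)
    (hl : q ≤ 2 * l) (hn : l ≤ n) (H : p ≤ n → ∃ a b : ℕ, a.Prime ∧ b.Prime ∧ n < a ∧ a + 3 ≤ b ∧
      b ≤ 2 * n) : ∃ a b : ℕ, a.Prime ∧ b.Prime ∧ n < a ∧ a + 3 ≤ b ∧ b ≤ 2 * n := by
  rcases lt_or_ge n p with h | h
  · exact ⟨p, q, hp, hq, h, hgap, by omega⟩
  · exact H h

/-- The arithmetic inequality for large `n`. -/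
theorem sqrt_pow_bound {n : ℕ} (hn : 2048 ≤ n) :
    (2 * n) ^ (Nat.sqrt (2 * n) + 3) * 4 ^ (2 * n / 3) ≤ 4 ^ n := by
  set s := Nat.sqrt (2 * n) with hs
  have h64 : 64 ≤ s := Nat.le_sqrt'.2 (by omega)
  have hs1 : s ^ 2 ≤ 2 * n := Nat.sqrt_le' _
  have hs2 : 2 * n < (s + 1) ^ 2 := Nat.lt_succ_sqrt' _
  obtain ⟨k, hk⟩ : ∃ k, Nat.log 2 s + 1 = k := ⟨_, rfl⟩
  have hk1 : s < 2 ^ k := hk ▸ Nat.lt_pow_succ_log_self (by omega) s
  have hk0 : 2 ^ (k - 1) ≤ s := by
    rw [← hk, Nat.add_sub_cancel]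
    exact Nat.pow_log_le_self 2 (by omega)
  have hk7 : 7 ≤ k := by
    by_contra h
    have : 2 ^ k ≤ 2 ^ 6 := Nat.pow_le_pow_right (by omega) (by omega)
    omega
  have hgrow : ∀ j, 7 ≤ j → 6 * j + 7 ≤ 2 ^ (j - 1) := by
    intro j hj
    induction j, hj using Nat.le_induction with
    | base => decide
    | succ j hj ih =>
      have e : 2 ^ (j + 1 - 1) = 2 * 2 ^ (j - 1) := by
        rw [← pow_succ', Nat.sub_add_cancel (by omega), Nat.add_sub_cancel]
      omega
  have hks : 6 * k + 7 ≤ s := (hgrow k hk7).trans hk0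
  have hb : 2 * n ≤ 2 ^ (2 * k) := by
    have h : (s + 1) ^ 2 ≤ (2 ^ k) ^ 2 := Nat.pow_le_pow_left hk1 2
    rw [← pow_mul, Nat.mul_comm k] at h
    omega
  have hexp : k * (s + 3) + 2 * n / 3 ≤ n := by
    have h1 : (6 * k + 7) * (s + 3) ≤ s * (s + 3) := Nat.mul_le_mul_right _ hks
    have h2 : s * (s + 3) = s ^ 2 + 3 * s := by ring
    have h3 : (6 * k + 7) * (s + 3) = 6 * (k * (s + 3)) + 7 * s + 21 := by ring
    omega
  calc (2 * n) ^ (s + 3) * 4 ^ (2 * n / 3) ≤ (2 ^ (2 * k)) ^ (s + 3) * 4 ^ (2 * n / 3) :=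
        Nat.mul_le_mul_right _ (Nat.pow_le_pow_left hb _)
    _ = 4 ^ (k * (s + 3) + 2 * n / 3) := by
        rw [pow_mul, ← pow_mul, pow_add]; norm_num
    _ ≤ 4 ^ n := Nat.pow_le_pow_right (by omega) hexp

/-- A strengthened Bertrand postulate: at least three primes in `(n, 2n]` for large `n`. -/
theorem three_le_card_primes_Ioc {n : ℕ} (hn : 2048 ≤ n) :
    3 ≤ ((Finset.Ioc n (2 * n)).filter Nat.Prime).card := by
  by_contra hcon
  set T := (Finset.Ioc n (2 * n)).filter Nat.Prime with hT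
  have npos : 0 < n := by omega
  set f : ℕ → ℕ := fun x => x ^ n.centralBinom.factorization x with hf
  have hf2n : ∀ p, f p ≤ 2 * n := fun p => Nat.pow_factorization_choose_le (by omega)
  set S := (Finset.range (2 * n / 3 + 1)).filter Nat.Prime with hS
  have hne : ∀ x, f x ≠ 1 → x.Prime := fun x h => by
    by_contra hx
    exact h (by simp only [hf]; rw [Nat.factorization_eq_zero_of_not_prime _ hx, pow_zero])
  have h1 : n.centralBinom = ∏ x ∈ S ∪ T, f x := by
    conv_lhs => rw [← n.prod_pow_factorization_centralBinom]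
    refine (Finset.prod_subset ?_ ?_).symm
    · intro x hx
      rw [Finset.mem_range]
      rcases Finset.mem_union.1 hx with hx | hx
      · have := Finset.mem_range.1 (Finset.mem_filter.1 hx).1
        omega
      · have := (Finset.mem_Ioc.1 (Finset.mem_filter.1 hx).1).2
        omega
    · intro x hx hxn
      by_contra h
      have hxp : x.Prime := hne x h
      have hxr := Finset.mem_range.1 hx
      simp only [hS, hT, Finset.mem_union, Finset.mem_filter, Finset.mem_range, Finset.mem_Ioc,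
        hxp, and_true, not_or] at hxn
      refine h ?_
      show x ^ n.centralBinom.factorization x = 1
      rw [Nat.factorization_centralBinom_of_two_mul_self_lt_three_mul (by omega) (by omega) (by omega),
        pow_zero]
  have hdisj : Disjoint S T := Finset.disjoint_left.2 fun x hx hx' => by
    have h1 := Finset.mem_range.1 (Finset.mem_filter.1 hx).1
    have h2 := (Finset.mem_Ioc.1 (Finset.mem_filter.1 hx').1).1
    omega
  rw [Finset.prod_union hdisj] at h1
  have hTle : ∏ x ∈ T, f x ≤ (2 * n) ^ 2 := by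
    refine (Finset.prod_le_prod' fun x _ => hf2n x).trans ?_
    rw [Finset.prod_const]
    exact Nat.pow_le_pow_right (by omega) (by omega)
  have hSle : ∏ x ∈ S, f x ≤ (2 * n) ^ Nat.sqrt (2 * n) * 4 ^ (2 * n / 3) := by
    rw [← Finset.prod_filter_mul_prod_filter_not S (· ≤ Nat.sqrt (2 * n))]
    refine Nat.mul_le_mul ?_ ?_
    · refine (Finset.prod_le_prod' fun p _ => hf2n p).trans ?_
      rw [Finset.prod_const]
      refine Nat.pow_le_pow_right (by omega) ?_
      refine (Finset.card_le_card (t := Finset.Icc 1 (Nat.sqrt (2 * n))) fun x hx => ?_).trans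
        (by simp)
      obtain ⟨h1, h2⟩ := Finset.mem_filter.1 hx
      exact Finset.mem_Icc.2 ⟨(Finset.mem_filter.1 h1).2.one_lt.le, h2⟩
    · refine le_trans ?_ (primorial_le_four_pow (2 * n / 3))
      refine (Finset.prod_le_prod' fun p hp => (?_ : f p ≤ p)).trans ?_
      · obtain ⟨h1, h2⟩ := Finset.mem_filter.1 hp
        have hp1 : p.Prime := (Finset.mem_filter.1 h1).2
        refine (Nat.pow_le_pow_right hp1.pos ?_).trans (pow_one p).le
        exact Nat.factorization_choose_le_one (Nat.sqrt_lt'.1 (not_le.1 h2))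
      exact Finset.prod_le_prod_of_subset_of_one_le' (Finset.filter_subset _ _)
        fun p hp _ => (Finset.mem_filter.1 hp).2.one_lt.le
  have hlow := Nat.four_pow_lt_mul_centralBinom n (by omega)
  have hup : n * n.centralBinom ≤ (2 * n) ^ (Nat.sqrt (2 * n) + 3) * 4 ^ (2 * n / 3) := by
    rw [h1]
    calc n * ((∏ x ∈ S, f x) * ∏ x ∈ T, f x)
        ≤ (2 * n) * (((2 * n) ^ Nat.sqrt (2 * n) * 4 ^ (2 * n / 3)) * (2 * n) ^ 2) :=
          Nat.mul_le_mul (by omega) (Nat.mul_le_mul hSle hTle)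
      _ = _ := by ring
  have := sqrt_pow_bound hn
  omega

/-- For `n ≥ 9` there are primes `n < p`, `q ≤ 2n` with `p + 3 ≤ q`. -/
theorem exists_two_primes_gap (n : ℕ) (hn : 9 ≤ n) :
    ∃ p q : ℕ, p.Prime ∧ q.Prime ∧ n < p ∧ p + 3 ≤ q ∧ q ≤ 2 * n := by
  rcases lt_or_ge n 2048 with hsmall | hbig
  · refine twoPrimes_step (l := 9) (p := 13) (q := 17) (by norm_num) (by norm_num) (by omega) (by omega) hn fun h => ?_
    refine twoPrimes_step (l := 13) (p := 19) (q := 23) (by norm_num) (by norm_num) (by omega) (by omega) h fun h => ?_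
    refine twoPrimes_step (l := 19) (p := 31) (q := 37) (by norm_num) (by norm_num) (by omega) (by omega) h fun h => ?_
    refine twoPrimes_step (l := 31) (p := 53) (q := 61) (by norm_num) (by norm_num) (by omega) (by omega) h fun h => ?_
    refine twoPrimes_step (l := 53) (p := 97) (q := 103) (by norm_num) (by norm_num) (by omega) (by omega) h fun h => ?_
    refine twoPrimes_step (l := 97) (p := 181) (q := 193) (by norm_num) (by norm_num) (by omega) (by omega) h fun h => ?_
    refine twoPrimes_step (l := 181) (p := 353) (q := 359) (by norm_num) (by norm_num) (by omega) (by omega) h fun h => ?_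
    refine twoPrimes_step (l := 353) (p := 691) (q := 701) (by norm_num) (by norm_num) (by omega) (by omega) h fun h => ?_
    refine twoPrimes_step (l := 691) (p := 1373) (q := 1381) (by norm_num) (by norm_num) (by omega) (by omega) h fun h => ?_
    refine twoPrimes_step (l := 1373) (p := 2731) (q := 2741) (by norm_num) (by norm_num) (by omega) (by omega) h fun h => ?_
    omega
  · obtain ⟨a, b, c, ha, hb, hc, hab, hac, hbc⟩ :=
      Finset.two_lt_card_iff.1 (three_le_card_primes_Ioc hbig)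
    simp only [Finset.mem_filter, Finset.mem_Ioc] at ha hb hc
    have odd : ∀ x : ℕ, x.Prime → n < x → x % 2 = 1 := fun x hx hnx =>
      hx.eq_two_or_odd.resolve_left (by omega)
    have h1 := odd a ha.2 ha.1.1
    have h2 := odd b hb.2 hb.1.1
    have h3 := odd c hc.2 hc.1.1
    by_cases e1 : a + 3 ≤ b
    · exact ⟨a, b, ha.2, hb.2, ha.1.1, e1, hb.1.2⟩
    by_cases e2 : b + 3 ≤ a
    · exact ⟨b, a, hb.2, ha.2, hb.1.1, e2, ha.1.2⟩
    by_cases e3 : a + 3 ≤ c
    · exact ⟨a, c, ha.2, hc.2, ha.1.1, e3, hc.1.2⟩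
    by_cases e4 : c + 3 ≤ a
    · exact ⟨c, a, hc.2, ha.2, hc.1.1, e4, ha.1.2⟩
    by_cases e5 : b + 3 ≤ c
    · exact ⟨b, c, hb.2, hc.2, hb.1.1, e5, hc.1.2⟩
    by_cases e6 : c + 3 ≤ b
    · exact ⟨c, b, hc.2, hb.2, hc.1.1, e6, hb.1.2⟩
    omega

end CfsgLib.PermPrimes
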