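import Mathlib
import Cfsg.Agent.PermPrimes.SmallDegree
import Cfsg.Agent.PermPrimes.TwoPrimes

set_option autoImplicit false

namespace CfsgLib.PermPrimes

open Equiv Equiv.Perm MulAction

variable {α : Type*} [Fintype α] [DecidableEq α]

/-- The admissible pairs of primes. -/
def GoodPair (m p q : ℕ) : Prop :=
  p.Prime ∧ q.Prime ∧ p < q ∧ 5 ≤ q ∧ q ≤ m ∧ m ≤ 2 * p ∧
    (p + 3 ≤ q ∨ (q = p + 2 ∧ (p = 3 ∨ p = 5 ∨ p = 11))) ∧
    (m = 2 * p → q + 3 ≤ m ∨ (p = 3 ∧ q = 5))

/-- An element of order `p` and one of order `q`, moving everything between them, generate an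
alternating group. -/
theorem closure_pair_alternating {m p q : ℕ} (hgood : GoodPair m p q) (X Y : Perm α)
    (hX : orderOf X = p) (hY : orderOf Y = q) (hXs : sign X = 1) (hYs : sign Y = 1)
    (hcover : ∀ i, X i ≠ i ∨ Y i ≠ i) (hm : Fintype.card α ≤ m) :
    ∃ d : ℕ, 5 ≤ d ∧ Nonempty (Subgroup.closure ({X, Y} : Set (Perm α)) ≃* alternatingGroup (Fin d)) := by
  classical
  obtain ⟨hp, hq, hpq, hq5, hqm, hm2, hgap, hdouble⟩ := hgood
  set H := Subgroup.closure ({X, Y} : Set (Perm α)) with hH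
  have hXH : X ∈ H := Subgroup.subset_closure (by simp)
  have hYH : Y ∈ H := Subgroup.subset_closure (by simp)
  have hHA : H ≤ alternatingGroup α := by
    rw [hH, Subgroup.closure_le]
    rintro f (rfl | rfl)
    · exact Equiv.Perm.mem_alternatingGroup.2 hXs
    · exact Equiv.Perm.mem_alternatingGroup.2 hYs
  obtain ⟨n1, hn1⟩ := cycleType_prime_order (σ := X) (by rw [hX]; exact hp)
  obtain ⟨n2, hn2⟩ := cycleType_prime_order (σ := Y) (by rw [hY]; exact hq)
  rw [hX] at hn1
  rw [hY] at hn2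
  have hXsum := X.sum_cycleType
  have hYsum := Y.sum_cycleType
  rw [hn1, Multiset.sum_replicate, smul_eq_mul] at hXsum
  rw [hn2, Multiset.sum_replicate, smul_eq_mul] at hYsum
  have hXle : X.support.card ≤ Fintype.card α := Finset.card_le_univ _
  have hYle : Y.support.card ≤ Fintype.card α := Finset.card_le_univ _
  have hYc : Y.IsCycle := isCycle_of_prime_order (by rw [hY]; exact hq) (by rw [hY]; omega)
  have hYq : Y.support.card = q := by rw [← hYc.orderOf, hY]
  set d := Fintype.card α with hd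
  have hqd : q ≤ d := hYq ▸ hYle
  -- transitivity
  obtain ⟨y0, hy0⟩ := hYc.nonempty_support
  have hto : ∀ i : α, ∃ h ∈ H, h y0 = i := by
    have hsupp : ∀ i ∈ Y.support, ∃ h ∈ H, h y0 = i := fun i hi => by
      obtain ⟨k, hk⟩ := hYc.sameCycle (mem_support.1 hy0) (mem_support.1 hi)
      exact ⟨Y ^ k, H.zpow_mem hYH k, hk⟩
    intro i
    by_cases hi : i ∈ Y.support
    · exact hsupp i hi
    have hXi : i ∈ X.support := mem_support.2 ((hcover i).resolve_right (fun h => h (notMem_support.1 hi)))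
    have hcard : (X.cycleOf i).support.card = p := by
      have h1 : (X.cycleOf i).support.card ∈ X.cycleType := by
        rw [cycleType_def]
        exact Multiset.mem_map.2 ⟨_, cycleOf_mem_cycleFactorsFinset_iff.2 hXi, rfl⟩
      rw [hn1] at h1
      exact Multiset.eq_of_mem_replicate h1
    obtain ⟨j, hj, hjY⟩ : ∃ j ∈ (X.cycleOf i).support, j ∈ Y.support := by
      by_contra hall
      simp only [not_exists, not_and] at hall
      have : (X.cycleOf i).support ⊆ Y.supportᶜ := fun j hj => Finset.mem_compl.2 (hall j hj)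
      have h2 := Finset.card_le_card this
      rw [Finset.card_compl, hcard, hYq, ← hd] at h2
      omega
    obtain ⟨k, hk⟩ := (mem_support_cycleOf_iff.1 hj).1
    obtain ⟨h, hh, hhy⟩ := hsupp j hjY
    refine ⟨(X ^ k)⁻¹ * h, H.mul_mem (H.inv_mem (H.zpow_mem hXH k)) hh, ?_⟩
    rw [Perm.mul_apply, hhy, Equiv.Perm.inv_eq_iff_eq]
    exact hk.symm
  haveI htrans : IsPretransitive H α := ⟨fun a b => by
    obtain ⟨ha, hha, ha'⟩ := hto a
    obtain ⟨hb, hhb, hb'⟩ := hto b
    refine ⟨⟨hb * ha⁻¹, H.mul_mem hhb (H.inv_mem hha)⟩, ?_⟩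
    show (hb * ha⁻¹) a = b
    rw [Perm.mul_apply, show ha⁻¹ a = y0 from Equiv.Perm.inv_eq_iff_eq.2 ha'.symm, hb']⟩
  -- primitivity
  have hprim : IsPreprimitive H α := by
    have hinv : ∀ f ∈ Subgroup.zpowers Y, ∀ z ∈ Y.support, f z ∈ Y.support := by
      intro f hf z hz
      obtain ⟨k, rfl⟩ := Subgroup.mem_zpowers_iff.1 hf
      rwa [Equiv.Perm.zpow_apply_mem_support]
    let Z := {z // z ∈ Y.support}
    letI actZ : MulAction (Subgroup.zpowers Y) Z :=
      { smul := fun f z => ⟨(f : Perm α) z.1, hinv f f.2 z.1 z.2⟩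
        one_smul := fun z => rfl
        mul_smul := fun f f' z => rfl }
    haveI : IsPretransitive (Subgroup.zpowers Y) Z := ⟨fun a b => by
      obtain ⟨k, hk⟩ := hYc.sameCycle (mem_support.1 a.2) (mem_support.1 b.2)
      exact ⟨⟨Y ^ k, Subgroup.mem_zpowers_iff.2 ⟨k, rfl⟩⟩, Subtype.ext hk⟩⟩
    haveI : IsPreprimitive (Subgroup.zpowers Y) Z := IsPreprimitive.of_prime_card (by
      rw [Nat.card_eq_fintype_card, Fintype.card_coe, hYq]; exact hq)
    let φ : Subgroup.zpowers Y → H := fun f => ⟨f.1, (Subgroup.zpowers_le.2 hYH) f.2⟩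
    let ι : Z →ₑ[φ] α :=
      { toFun := fun z => z.1
        map_smul' := fun f z => rfl }
    refine IsPreprimitive.of_card_lt (f := ι) ?_
    have hrange : (Set.range ι).ncard = q := by
      have : Set.range ι = (Y.support : Set α) := Subtype.range_coe_subtype
      rw [this, Set.ncard_coe_finset, hYq]
    rw [hrange, Nat.card_eq_fintype_card, ← hd]
    omega
  have finish : alternatingGroup α ≤ H → ∃ d : ℕ, 5 ≤ d ∧ Nonempty (H ≃* alternatingGroup (Fin d)) := by
    intro h
    obtain ⟨e⟩ := iso_alternating_fin (α := α) hd.symm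
    exact ⟨d, by omega, ⟨(MulEquiv.subgroupCongr (le_antisymm hHA h)).trans e⟩⟩
  by_cases hsingle : X.support.card = p
  · have hXc : X.IsCycle := isCycle_of_prime_order (by rw [hX]; exact hp)
      (by rw [hX, hsingle]; have := hp.two_le; omega)
    by_cases h3 : p + 3 ≤ d
    · exact finish (alternatingGroup_le_of_primitive_pCycle H hprim hp h3 hXc hsingle hXH)
    · obtain ⟨hq2, hsmall⟩ := hgap.resolve_left (by omega)
      rcases hsmall with rfl | rfl | rfl
      · exact finish (alternatingGroup_le_of_isPreprimitive_of_isThreeCycle_mem hprim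
          (card_support_eq_three_iff.1 hsingle) hXH)
      · exact finish (deg_seven H (by omega) hHA hprim hXH hXc hsingle).ge
      · exact finish (deg_thirteen H (by omega) hHA hprim hXH hXc hsingle).ge
  · -- two `p`-cycles
    have hn : n1 ≠ 0 := by
      rintro rfl
      exact hsingle (by omega)
    have h2p : 2 * p ≤ (n1 + 1) * p := Nat.mul_le_mul_right p (by omega)
    have hdeq : d = 2 * p ∧ m = 2 * p := ⟨by omega, by omega⟩
    rcases hdouble hdeq.2 with h | ⟨rfl, rfl⟩
    · exact finish (alternatingGroup_le_of_primitive_pCycle H hprim hq (by omega) hYc hYq hYH)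
    · exact deg_six H (by omega) hHA hprim hYH hYc hYq

/-- Choice of the two primes. -/
theorem exists_goodPair (m : ℕ) (hm : 5 ≤ m) : ∃ p q : ℕ, GoodPair m p q := by
  unfold GoodPair
  rcases lt_or_ge m 18 with h | h
  · interval_cases m
    · exact ⟨3, 5, by norm_num⟩
    · exact ⟨3, 5, by norm_num⟩
    · exact ⟨5, 7, by norm_num⟩
    · exact ⟨5, 7, by norm_num⟩
    · exact ⟨5, 7, by norm_num⟩
    · exact ⟨5, 7, by norm_num⟩
    · exact ⟨7, 11, by norm_num⟩
    · exact ⟨7, 11, by norm_num⟩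
    · exact ⟨7, 11, by norm_num⟩
    · exact ⟨7, 11, by norm_num⟩
    · exact ⟨11, 13, by norm_num⟩
    · exact ⟨11, 13, by norm_num⟩
    · exact ⟨11, 17, by norm_num⟩
  · obtain ⟨p, q, hp, hq, hnp, hgap, hqn⟩ := exists_two_primes_gap (m / 2) (by omega)
    exact ⟨p, q, hp, hq, by omega, by omega, by omega, by omega, Or.inl hgap,
      fun he => absurd he (by omega)⟩

end CfsgLib.PermPrimes
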